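import Cfsg.Agent.SPOR.MP.DegA
import Cfsg.Agent.SPOR.MO.QCnt
import Cfsg.Agent.SPOR.MonOdd
import Cfsg.Agent.SPOR.LeechSimple

/-!
The decomposition of a small representation of a group of Monster type under the extraspecial group.
-/

set_option autoImplicit false

namespace CL.Deg

open Cfsg CL.Leech CL.MT CL.LX Module Classical

variable {G : Type*} [Group G] {z : G} {Q : Subgroup G} {x y g g' q : G}

/-- the commutation sign -/
noncomputable def sn (x g : G) : ℂ := if g * x * g⁻¹ = x then 1 else -1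

/-- `g` centralises `z` and fixes `x` modulo `z` -/
def Fx (z x g : G) : Prop := g * z = z * g ∧ (g * x * g⁻¹ = x ∨ g * x * g⁻¹ = x * z)

theorem sn_sq (x g : G) : sn x g * sn x g = 1 := by unfold sn; split_ifs <;> simp

theorem sn_comm (x g : G) : sn x g = sn g x := by
  simp only [sn, mul_inv_eq_iff_eq_mul]
  exact if_congr eq_comm rfl rfl

theorem sn_one (g : G) : sn 1 g = 1 := by simp [sn]

theorem sn_conj (c x g : G) : sn (c * x * c⁻¹) (c * g * c⁻¹) = sn x g := by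
  rw [sn, sn, show c * g * c⁻¹ * (c * x * c⁻¹) * (c * g * c⁻¹)⁻¹ = c * (g * x * g⁻¹) * c⁻¹ by group]
  simp

theorem sn_mul (h : ES Q z) (a : Fx z x g) (b : Fx z x g') : sn x (g * g') = sn x g * sn x g' := by
  have n : x * z ≠ x := fun e => h.z_ne (mul_eq_left.1 e)
  have e : g * g' * x * (g * g')⁻¹ = g * (g' * x * g'⁻¹) * g⁻¹ := by group
  have e' : g * (x * z) * g⁻¹ = g * x * g⁻¹ * z := by
    rw [← mul_assoc, mul_assoc _ z, mul_assoc _ g⁻¹, (Commute.inv_left a.1).eq]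
  unfold sn
  rw [e]
  rcases b.2 with b | b <;> rcases a.2 with a | a <;> rw [b] <;> try rw [e']
  all_goals simp [a, n, mul_assoc x, h.z_sq]

theorem fx_mem (h : ES Q z) (hx : x ∈ Q) (hq : q ∈ Q) : Fx z x q :=
  ⟨h.z_comm q hq, h.conj_cases hx hq⟩

theorem sn_mul' (h : ES Q z) (hx : x ∈ Q) (hy : y ∈ Q) (hq : q ∈ Q) :
    sn (x * y) q = sn x q * sn y q := by
  rw [sn_comm, sn_mul h (fx_mem h hq hx) (fx_mem h hq hy), sn_comm q, sn_comm q]

theorem sn_z (h : ES Q z) (hq : q ∈ Q) : sn z q = 1 :=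
  if_pos (mul_inv_eq_iff_eq_mul.2 (h.z_comm q hq))

variable [Fintype Q]

theorem sum_sn (h : ES Q z) (hx : x ∈ Q) :
    ∑ q : Q, sn x q = if x = 1 ∨ x = z then (Fintype.card Q : ℂ) else 0 := by
  split_ifs with e
  · rw [Finset.sum_congr rfl (g := fun _ => 1) fun q _ => ?_]
    · simp
    rcases e with rfl | rfl
    exacts [sn_one _, sn_z h q.2]
  obtain ⟨y, hy, n⟩ := h.exists_not_comm hx (fun a => e (Or.inl a)) fun a => e (Or.inr a)
  have := Equiv.sum_comp (Equiv.mulLeft (⟨y, hy⟩ : Q)) fun q => sn x q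
  rw [Finset.sum_congr rfl (g := fun q : Q => -sn x q) fun q _ => ?_, Finset.sum_neg_distrib] at this
  · linear_combination -this / 2
  rw [Equiv.coe_mulLeft, Subgroup.coe_mul, sn_mul h (fx_mem h hx hy) (fx_mem h hx q.2), sn,
    if_neg fun e => n (mul_inv_eq_iff_eq_mul.1 e).symm, neg_one_mul]

variable {V : Type*} [AddCommGroup V] [Module ℂ V] (ρ : G →* End ℂ V)

variable (Q) in
/-- the projector on a weight space -/
noncomputable def pj (x : G) : End ℂ V := (Fintype.card Q : ℂ)⁻¹ • ∑ q : Q, sn x q • ρ q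

theorem rho_pj (h : ES Q z) (hx : x ∈ Q) (hq : q ∈ Q) : ρ q * pj Q ρ x = sn x q • pj Q ρ x := by
  rw [pj, mul_smul_comm, smul_comm (sn x q), Finset.mul_sum, Finset.smul_sum (r := sn x q),
    ← Equiv.sum_comp (Equiv.mulLeft (⟨q, hq⟩ : Q)) fun a => sn x q • sn x a • ρ a]
  refine congrArg _ (Finset.sum_congr rfl fun a _ => ?_)
  rw [Equiv.coe_mulLeft, Subgroup.coe_mul, sn_mul h (fx_mem h hx hq) (fx_mem h hx a.2), smul_smul,
    ← mul_assoc, sn_sq, one_mul, map_mul, mul_smul_comm]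

theorem pj_mul (h : ES Q z) (hx : x ∈ Q) (hy : y ∈ Q) :
    pj Q ρ x * pj Q ρ y = if x * y = 1 ∨ x * y = z then pj Q ρ y else 0 := by
  rw [pj.eq_1 Q ρ x, smul_mul_assoc, Finset.sum_mul, Finset.sum_congr rfl fun q _ => by
    rw [smul_mul_assoc, rho_pj ρ h hy q.2, smul_smul, ← sn_mul' h hx hy q.2], ← Finset.sum_smul,
    sum_sn h (mul_mem hx hy)]
  split_ifs <;> simp

theorem pj_idem (h : ES Q z) (hx : x ∈ Q) : pj Q ρ x * pj Q ρ x = pj Q ρ x := by
  rw [pj_mul ρ h hx hx, if_pos (h.sq x hx)]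

theorem pj_orth (h : ES Q z) (hx : x ∈ Q) (hy : y ∈ Q) (n : ¬ (y = x ∨ y = x * z)) :
    pj Q ρ x * pj Q ρ y = 0 := by
  rw [pj_mul ρ h hx hy, if_neg fun e => n ?_]
  rcases e with e | e <;> rcases h.sq x hx with s | s
  · exact Or.inl (mul_left_cancel (e.trans s.symm))
  · exact Or.inr (mul_left_cancel (a := x) (by rw [e, ← mul_assoc, s, h.z_sq]))
  · exact Or.inr (mul_left_cancel (a := x) (by rw [e, ← mul_assoc, s, one_mul]))
  · exact Or.inl (mul_left_cancel (e.trans s.symm))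

theorem pj_z (h : ES Q z) (hx : x ∈ Q) : pj Q ρ (x * z) = pj Q ρ x := by
  simp only [pj, fun q : Q => sn_mul' h hx h.z_mem q.2, fun q : Q => sn_z h q.2, mul_one]

theorem sum_three {M : Type*} [AddCommMonoid M] (h : ES Q z) (f : G → M) (p : G → Prop)
    (h1 : ¬ p 1) (h2 : ¬ p z) (h0 : ∀ x ∈ Q, x ≠ 1 → x ≠ z → ¬ p x → f x = 0) :
    ∑ x : Q, f x = f 1 + f z + ∑ x ∈ Finset.univ.filter fun x : Q => p x.1, f x.1 := by
  rw [← Finset.sum_filter_add_sum_filter_not _ (fun x : Q => p x), add_comm]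
  congr 1
  refine (Finset.sum_subset (fun x m => ?_) fun x m n => ?_).symm.trans
    (Finset.sum_pair (f := fun x : Q => f x) (a := 1) (b := ⟨z, h.z_mem⟩)
      fun e => h.z_ne (congrArg Subtype.val e).symm)
  · simp only [Finset.mem_insert, Finset.mem_singleton] at m
    rcases m with rfl | rfl <;> simpa
  · simp only [Finset.mem_insert, Finset.mem_singleton, Subtype.ext_iff, not_or] at n
    exact h0 x x.2 n.1 n.2 (by simpa using m)

theorem sum_pj (h : ES Q z) : ∑ x : Q, pj Q ρ x = 1 + ρ z := by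
  simp only [pj]
  rw [← Finset.smul_sum, Finset.sum_comm]
  rw [Finset.sum_congr rfl fun q _ => by
      rw [← Finset.sum_smul, Finset.sum_congr rfl fun x _ => sn_comm _ _], sum_three h (fun q => (∑ x : Q, sn q x) • ρ q) (fun _ => False) id id fun x hx a b _ => by
    rw [sum_sn h hx, if_neg (not_or.2 ⟨a, b⟩), zero_smul], sum_sn h (one_mem _), sum_sn h h.z_mem]
  simp [smul_smul]

theorem pj_conj (h : LX Q z) (hg : g * z = z * g) (x : G) :
    ρ g * pj Q ρ x = pj Q ρ (g * x * g⁻¹) * ρ g := by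
  let e : Q ≃ Q := ⟨fun q => ⟨g * q * g⁻¹, h.norm g hg q q.2⟩, fun q => ⟨g⁻¹ * q * g, h.norm' hg q.2⟩,
    fun q => by simp [mul_assoc], fun q => by simp [mul_assoc]⟩
  rw [pj, pj, mul_smul_comm, smul_mul_assoc, Finset.mul_sum, Finset.sum_mul]
  refine congrArg _ ((Finset.sum_congr rfl fun q _ => ?_).trans (Equiv.sum_comp e _))
  rw [Equiv.coe_fn_mk, sn_conj, mul_smul_comm, smul_mul_assoc, ← map_mul, ← map_mul,
    inv_mul_cancel_right]

theorem tr_pj_conj (h : LX Q z) (hg : g * z = z * g) (x : G) :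
    tr (pj Q ρ (g * x * g⁻¹)) = tr (pj Q ρ x) := by
  have := congrArg (fun f => tr (f * ρ g⁻¹)) (pj_conj ρ h hg x)
  rwa [tr_comm, ← mul_assoc, mul_assoc (pj _ _ _), ← map_mul, ← map_mul, mul_inv_cancel, inv_mul_cancel,
    map_one, one_mul, mul_one, eq_comm] at this

variable (Q) in
/-- the average over a coset of `Q` -/
noncomputable def uQ (χ : G → ℂ) (g : G) : ℂ := (Fintype.card Q : ℂ)⁻¹ * ∑ q : Q, χ (g * q)

theorem uQ_mul (χ : G → ℂ) (g : G) (hq : q ∈ Q) : uQ Q χ (g * q) = uQ Q χ g := by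
  simp only [uQ, mul_assoc g]
  exact congrArg _ (Equiv.sum_comp (Equiv.mulLeft (⟨q, hq⟩ : Q)) fun a => χ (g * a))

theorem tr_pj_one (g : G) : tr (ρ g * pj Q ρ 1) = uQ Q (fun a => tr (ρ a)) g := by
  simp [pj, uQ, sn_one, Finset.mul_sum]

variable {R : leechLattice → G → Prop} {A : Co0 → G → Prop}

omit [Fintype Q] in
theorem descend (h : MT z Q R A) {K M : Type*} [Group K] [Monoid M] (ι : K →* Co0) (η : G → M)
    (S : G → Prop) (hS : ∀ k c, A (ι k) c → S c) (mul : ∀ a b, S a → S b → η (a * b) = η a * η b)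
    (hQ : ∀ q ∈ Q, η q = 1) : ∃ σ : K →* M, ∀ k c, A (ι k) c → σ k = η c := by
  choose f hf using h.ex_c
  have k : ∀ k c, A (ι k) c → η (f (ι k)) = η c := fun k c e => by
    have m := h.mem_of_A (hf _) e
    rw [← inv_mul_cancel_right (f (ι k)) c, mul _ _ (hS 1 _ (map_one ι ▸ h.A_one m)) (hS k c e), hQ _ m,
      one_mul]
  refine ⟨⟨⟨fun a => η (f (ι a)), ?_⟩, fun a b => ?_⟩, k⟩
  · rw [k 1 1 (map_one ι ▸ h.A_one (one_mem _)), hQ _ (one_mem _)]
  · exact (k _ _ (map_mul ι a b ▸ h.A_mul (hf _) (hf _))).trans (mul _ _ (hS a _ (hf _)) (hS b _ (hf _)))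

theorem stab_hom {r : leechLattice} (hr : sqNorm r.1 = 32) (θ : MulAction.stabilizer Co0 r →* ℂ) (k) :
    θ k = 1 := by
  obtain ⟨g, e⟩ := Cfsg.Agent.S0400.result _ r sqNorm_leechU hr
  have := simple_stab_U
  have := (MulAction.stabilizerEquivStabilizer (e.symm : r = g • Spor.leechU)).symm.isSimpleGroup
  rcases (θ.toHomUnits.normal_ker).eq_bot_or_eq_top with e | e
  · have i := (MonoidHom.ker_eq_bot_iff _).1 e
    let _ : CommGroup (MulAction.stabilizer Co0 r) :=
      { mul_comm := fun a b => i (by rw [map_mul, map_mul, mul_comm]) }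
    have := IsSimpleGroup.prime_card (α := MulAction.stabilizer Co0 r)
    rw [card_stab_32 hr] at this
    norm_num at this
  · exact congrArg Units.val (e.ge (Subgroup.mem_top k))

variable [FiniteDimensional ℂ V]

theorem tr_rank_one (h : MT z Q R A) {r : leechLattice} (hx : R r x) (hr : sqNorm r.1 = 32)
    (t : tr (pj Q ρ x) = 1) (f : Fx z x g) : tr (ρ g * pj Q ρ x) = sn x g := by
  have m := h.R_mem hx
  obtain ⟨a, φ, h1, h2⟩ := rank_one (pj_idem ρ h.lx.toES m) t
  have pa : pj Q ρ x a = a := by rw [h2, h1, one_smul]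
  have e : ∀ c, Fx z x c → ρ c a = φ (ρ c a) • a := fun c f => by
    have := LinearMap.congr_fun (pj_conj ρ h.lx f.1 x) a
    rw [End.mul_apply, End.mul_apply, pa] at this
    rcases f.2 with e | e <;> rw [e] at this
    · rwa [h2] at this
    · rwa [pj_z ρ h.lx.toES m, h2] at this
  obtain ⟨θ, hθ⟩ := descend h (MulAction.stabilizer Co0 r).subtype (fun c => φ (ρ c a) * sn x c) (Fx z x)
    (fun k c e => ⟨h.A_comm e, h.cases_of hx (k.2 ▸ h.R_conj e hx)⟩) (fun b c fb fc => by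
      rw [sn_mul h.lx.toES fb fc, map_mul, End.mul_apply, e c fc, map_smul, map_smul, map_smul, h1,
        smul_eq_mul, smul_eq_mul]
      ring) fun q hq => by
      have := LinearMap.congr_fun (rho_pj ρ h.lx.toES m hq) a
      rw [End.mul_apply, LinearMap.smul_apply, pa] at this
      rw [this, map_smul, h1, smul_eq_mul, mul_one, sn_sq]
  have k : φ (ρ g a) * sn x g = 1 := by
    obtain ⟨k, hk⟩ := h.ex_g g f.1
    have c : Cong (k • r) r := (h.R_cong hx (h.R_conj hk hx)).2 f.2 |>.symm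
    rcases c.short (by rw [sqNorm_smul]; omega) (by omega) with c | c | c
    · rw [← hθ ⟨k, c⟩ g hk, stab_hom hr]
    · rw [← hθ ⟨neg1 * k, by rw [MulAction.mem_stabilizer_iff, mul_smul, c, neg1_smul, neg_neg]⟩ g
        (h.A_center hk neg1_mem_center), stab_hom hr]
    · omega
  rw [show ρ g * pj Q ρ x = φ.smulRight (ρ g a) from LinearMap.ext fun v => by simp [h2], tr,
    LinearMap.trace_smulRight]
  linear_combination sn x g * k - φ (ρ g a) * sn_sq x g

/-- elements over vectors of a given norm -/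
def Ty (R : leechLattice → G → Prop) (n : ℤ) (x : G) : Prop := ∃ v, R v x ∧ sqNorm v.1 = n

omit [FiniteDimensional ℂ V] in
theorem tr_pj_eq (h : MT z Q R A) {n : ℤ} (hn : n = 32 ∨ n = 48 ∨ n = 64) (hx : Ty R n x)
    (hy : Ty R n y) : tr (pj Q ρ x) = tr (pj Q ρ y) := by
  obtain ⟨v, hx, hv⟩ := hx
  obtain ⟨w, hy, hw⟩ := hy
  have h1 := h.ne_of_norm hy (by omega) (by omega)
  obtain ⟨k, e⟩ : ∃ k : Co0, k • v = w := by
    rcases hn with rfl | rfl | rfl
    exacts [Cfsg.Agent.S0400.result v w hv hw, trans_48 hv hw, trans_64 hv hw]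
  obtain ⟨c, hc, rfl⟩ := h.exists_conj_eq (g := k) hx hy (e ▸ Cong.refl _) h1.1 h1.2
  exact (tr_pj_conj ρ h.lx (h.A_comm hc) x).symm

variable (Q R) in
/-- the same as a finite set -/
noncomputable def TF (n : ℤ) : Finset Q := Finset.univ.filter fun x : Q => Ty R n x.1

theorem mem_TF {n : ℤ} {x : Q} : x ∈ TF Q R n ↔ Ty R n x.1 := by simp [TF]

theorem card_Ty (h : MT z Q R A) (n : ℤ) : (TF Q R n).card = {x | Ty R n x}.ncard := by
  rw [← Set.ncard_coe_finset, ← Set.ncard_image_of_injective _ Subtype.val_injective]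
  congr 1
  ext x
  exact ⟨fun ⟨_, a, b⟩ => b ▸ mem_TF.1 a, fun a => ⟨⟨x, h.R_mem a.choose_spec.1⟩, mem_TF.2 a, rfl⟩⟩

theorem le_card_Ty (h : MT z Q R A) {n : ℤ} (hn : n = 48 ∨ n = 64) : 8000000 ≤ (TF Q R n).card := by
  choose f hf using h.ex_x
  have k : ∀ b, (∀ v : leechLattice, sqNorm v.1 = n → ∀ s : Finset leechLattice,
      (∀ w ∈ s, sqNorm w.1 = n ∧ Cong v w) → s.card ≤ b) →
      {v : leechLattice | sqNorm v.1 = n}.ncard ≤ b * (TF Q R n).card := fun b hb => by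
    rw [Set.ncard_eq_toFinset_card _ (finite_shell n)]
    refine Finset.card_le_mul_card_image_of_maps_to (f := fun v => (⟨f v, h.R_mem (hf v)⟩ : Q))
      (fun v m => mem_TF.2 ⟨v, hf v, by simpa using m⟩) b fun x m => ?_
    obtain ⟨v, hx, hv⟩ := mem_TF.1 m
    refine hb v hv _ fun w m => ?_
    obtain ⟨a, rfl⟩ := Finset.mem_filter.1 m
    exact ⟨by simpa using a, h.cong_of hx (hf w)⟩
  rcases hn with rfl | rfl
  · have := k 2 fun v hv s hs => (Finset.card_le_card (t := {v, -v}) fun w m => by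
      rcases (hs w m).2.symm.short (by rw [(hs w m).1]; norm_num) (by omega) with e | e | e
      · simp [e]
      · simp [e]
      · omega).trans Finset.card_le_two
    rw [ncard_shell_48] at this
    omega
  · have := k 48 fun v hv s hs => by
      rw [← ncard_class v.2 hv, ← Set.ncard_coe_finset]
      exact Set.ncard_le_ncard_of_injOn Subtype.val
        (fun w m => ⟨w.2, (hs w m).1, cong_iff_coe.1 (hs w m).2⟩) Subtype.val_injective.injOn
        (Set.finite_of_ncard_ne_zero (by rw [ncard_class v.2 hv]; norm_num))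
    rw [ncard_shell_64] at this
    omega

omit [FiniteDimensional ℂ V] in
theorem idem_of_sq {r : End ℂ V} (h : r * r = 1) :
    (2 : ℂ)⁻¹ • (1 - r) * (2 : ℂ)⁻¹ • (1 - r) = (2 : ℂ)⁻¹ • (1 - r) := by
  rw [smul_mul_smul_comm, mul_sub, sub_mul, sub_mul, h]; simp only [mul_one, one_mul]; module

theorem pj_eq_zero (h : MT z Q R A) (hV : finrank ℂ V ≤ 196884) {n : ℤ} (hn : n = 48 ∨ n = 64)
    (hx : Ty R n x) : pj Q ρ x = 0 := by
  have E := h.lx.toES
  have t := fun y : Q => tr_idem (pj_idem ρ E y.2)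
  have m := h.R_mem hx.choose_spec.1
  have h1 := tr_idem (idem_of_sq (r := ρ z) (by rw [← map_mul, E.z_sq, map_one]))
  have h2 := congrArg tr (sum_pj ρ E)
  rw [tr, map_smul, map_sub, LinearMap.trace_one, smul_eq_mul] at h1
  rw [tr, map_sum, Finset.sum_congr rfl fun y _ => t y, tr, map_add, LinearMap.trace_one] at h2
  have h3 : ((∑ y : Q, finrank ℂ (LinearMap.range (pj Q ρ y)) +
      2 * finrank ℂ (LinearMap.range ((2 : ℂ)⁻¹ • (1 - ρ z))) : ℕ) : ℂ) = (2 * finrank ℂ V : ℕ) := by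
    push_cast
    linear_combination h2 - 2 * h1
  have h4 := Finset.sum_le_sum_of_subset (f := fun y : Q => finrank ℂ (LinearMap.range (pj Q ρ y)))
    (TF Q R n).subset_univ
  rw [Finset.sum_congr rfl (g := fun _ => finrank ℂ (LinearMap.range (pj Q ρ x))) fun y hy =>
    Nat.cast_injective (R := ℂ) (by
      rw [← t y, ← t ⟨x, m⟩]; exact tr_pj_eq ρ h (Or.inr hn) (mem_TF.1 hy) hx), Finset.sum_const,
    smul_eq_mul] at h4
  rw [Nat.cast_inj] at h3
  have h5 := le_card_Ty h hn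
  refine eq_zero_of_tr (pj_idem ρ E m) ((t ⟨x, m⟩).trans (Nat.cast_eq_zero.2 ?_))
  by_contra k
  have := (Nat.mul_le_mul h5 (Nat.one_le_iff_ne_zero.2 k)).trans h4
  omega

variable (z Q R) in
/-- the character of the monomial representation on the short elements -/
noncomputable def Th (g : G) : ℂ := ∑ x ∈ TF Q R 32, if Fx z x.1 g then sn x.1 g else 0

theorem Th_one (h : MT z Q R A) : Th z Q R 1 = 196560 := by
  have := MO.qc_ncard h (T := {v | sqNorm v.1 = 32}) (fun _ m => m) fun v m => (sqNorm_neg v.1).trans m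
  rw [ncard_shell_32] at this
  simp only [Th, Fx, sn, one_mul, mul_one, inv_one, true_or, and_self, if_true, Finset.sum_const,
    card_Ty h, nsmul_eq_mul]
  rw [show {x | Ty R 32 x} = {x | ∃ v ∈ {v : leechLattice | sqNorm v.1 = 32}, R v x} from
    Set.ext fun x => exists_congr fun v => and_comm, this]
  norm_num

theorem decomp (h : MT z Q R A) (hV : finrank ℂ V ≤ 196884) : ∃ m : ℕ,
    (∀ q ∈ Q, tr (ρ q) + tr (ρ (q * z)) = 2 * uQ Q (fun a => tr (ρ a)) 1 + m * Th z Q R q) ∧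
    (m = 1 → ∀ g, g * z = z * g →
      tr (ρ g) + tr (ρ (g * z)) = 2 * uQ Q (fun a => tr (ρ a)) g + Th z Q R g) := by
  have E := h.lx.toES
  have k : ∀ g, tr (ρ g) + tr (ρ (g * z)) = 2 * uQ Q (fun a => tr (ρ a)) g +
      ∑ x ∈ TF Q R 32, tr (ρ g * pj Q ρ x) := fun g => by
    have := sum_three E (fun x => tr (ρ g * pj Q ρ x)) (Ty R 32)
      (fun ⟨_, a, b⟩ => (h.ne_of_norm a (by omega) (by omega)).1 rfl)
      (fun ⟨_, a, b⟩ => (h.ne_of_norm a (by omega) (by omega)).2 rfl) fun x hx a b c => by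
        obtain ⟨v, hv⟩ := h.ex_v x hx
        obtain ⟨w, hc, hw⟩ := exists_short' v
        have hw' := h.R_of_cong hv hc
        rcases hw with rfl | e | e
        · exact ((h.cases_of h.R_zero hw').elim a fun e => b (e.trans (one_mul z))).elim
        · exact (c ⟨w, hw', e⟩).elim
        · rw [pj_eq_zero ρ h hV e ⟨w, hw', rfl⟩, mul_zero, tr, map_zero]
    rw [← map_sum, ← Finset.mul_sum, sum_pj ρ E, ← one_mul z, pj_z ρ E (one_mem _), tr_pj_one, mul_add,
      map_add, mul_one, one_mul, ← map_mul] at this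
    rw [TF]
    linear_combination this
  obtain ⟨t, ht⟩ := h.ex_x Spor.leechU
  have t1 := fun {x} (hx : Ty R 32 x) => (tr_pj_eq ρ h (Or.inl rfl) hx ⟨_, ht, sqNorm_leechU⟩).trans
    (tr_idem (pj_idem ρ E (h.R_mem ht)))
  refine ⟨finrank ℂ (LinearMap.range (pj Q ρ t)), fun q hq => ?_, fun m g hg => ?_⟩
  · rw [k, ← one_mul q, uQ_mul _ _ hq, one_mul, Th, Finset.mul_sum]
    refine congrArg _ (Finset.sum_congr rfl fun x m => ?_)
    rw [rho_pj ρ E x.2 hq, if_pos (fx_mem E x.2 hq), tr, map_smul, ← tr, t1 (mem_TF.1 m),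
      smul_eq_mul, mul_comm]
  · rw [k, Th]
    refine congrArg _ (Finset.sum_congr rfl fun x hx => ?_)
    obtain ⟨r, h1, h2⟩ := mem_TF.1 hx
    split_ifs with f
    · exact tr_rank_one ρ h h1 h2 ((t1 ⟨r, h1, h2⟩).trans (by rw [m, Nat.cast_one])) f
    · rw [← pj_idem ρ E x.2, ← mul_assoc, tr_comm, pj_conj ρ h.lx hg, ← mul_assoc,
        pj_orth ρ E x.2 (h.lx.norm g hg x x.2) fun e => f ⟨hg, e⟩, zero_mul, tr, map_zero]

end CL.Deg
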