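import Cfsg.Agent.SPOR.MP.DegB
import Cfsg.Agent.SPOR.MP.DegC
import Cfsg.Agent.SPOR.MO.Ax3
import Cfsg.Agent.SPOR.MO.Main

/-!
The minimal degree of a faithful complex representation of the automorphism group of the Griess
algebra.
-/

set_option autoImplicit false

namespace CL.Deg

open Cfsg CL.Leech CL.MT CL.LX CL.MSS CL.Gr CL.MO Module TensorProduct

section abs

variable {G : Type*} [Group G] [Finite G] {z : G} {Q : Subgroup G} {R : leechLattice → G → Prop}
  {A : Co0 → G → Prop}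

theorem triality (h : MT z Q R A) {δ F : G → ℂ} (cl : ∀ g a, δ (g * a * g⁻¹) = δ a)
    (hF : ∀ c, c * z = z * c → δ c + δ (c * z) = 2 * F c) (hq : ∀ c, ∀ q ∈ Q, F (c * q) = F c)
    {k ε : Co0} (hk : k ∈ NN) (hε : ε ∈ Sgn) : ∃ c c', A k c ∧ A (k * ε) c' ∧ F c' = F c := by
  have E := h.lx.toES
  have H : ∀ g y c q, g * z * g⁻¹ = y → c * y = y * c → q ∈ g •ᶜ Q →
      δ (c * q) + δ (c * q * y) = δ c + δ (c * y) := by
    rintro g _ c _ rfl hc ⟨q, m, rfl⟩
    obtain ⟨c, rfl⟩ := (MulAut.conj g).surjective c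
    simp only [MulEquiv.coe_toMonoidHom, MulAut.conj_apply, conj_mul, cl, mul_left_inj,
      mul_right_inj] at hc ⊢
    rw [hF c hc, hF _ (by rw [mul_assoc, E.z_comm q m, ← mul_assoc, hc, mul_assoc]), hq c q m]
  obtain ⟨j, hj⟩ := h.ex_x (e8 none)
  have jQ := h.R_mem hj
  have zj := E.z_comm j jQ
  obtain ⟨g, e⟩ := isConj_iff.1 (h.conj_of_64 hj (sqNorm_e8 _))
  obtain ⟨g', e'⟩ := isConj_iff.1 (h.conj_of_64 (h.R_z hj) (sqNorm_e8 _))
  have three : ∀ c, c * z = z * c → c * j = j * c → δ (c * z) = δ c ∧ δ (c * j) = δ c :=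
    fun c h1 h2 => by
      have e1 := H 1 z c j (by simp) h1 ⟨j, jQ, by simp⟩
      have e2 := H g j c z e h2 (h.lx.symm_of_card h.eight_lt (e ▸ jQ))
      have e3 := H g' _ c z e' (by rw [← mul_assoc, h2, mul_assoc, h1, mul_assoc])
        (h.lx.symm_of_card h.eight_lt (e' ▸ mul_mem jQ E.z_mem))
      rw [mul_assoc c z, ← zj, ← mul_assoc] at e2
      rw [mul_assoc c z, zj, ← mul_assoc z, E.z_sq, one_mul, ← zj, ← mul_assoc] at e3
      exact ⟨by linear_combination (e3 + e2) / 2, by linear_combination (e3 + e1) / 2⟩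
  have n := h.ne_of_norm hj (sqNorm_e8 _).le (by rw [sqNorm_e8]; norm_num)
  obtain ⟨c, hc, cj⟩ := h.exists_conj_eq (g := k) hj hj (mem_St.1 ((St_e8 _).ge hk)) n.1 n.2
  obtain ⟨q, m, a⟩ := (h.lifts_e8 (e ▸ hj)).ge hε
  replace cj := mul_inv_eq_iff_eq_mul.1 cj
  have a' := h.A_mul hc a
  have qj : c * q * j = j * (c * q) := by
    rw [mul_assoc, ← e, (E.conj g).z_comm q m, e, ← mul_assoc, cj, mul_assoc]
  have t := three c (h.A_comm hc) cj
  have t' := three _ (h.A_comm a') qj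
  refine ⟨c, _, hc, a', ?_⟩
  linear_combination (hF c (h.A_comm hc) - hF _ (h.A_comm a') + H g j c q e cj m + t'.1 - t'.2 - t.1 +
    t.2) / 2

variable [Fintype Q] {V V' : Type*} [AddCommGroup V] [Module ℂ V] [FiniteDimensional ℂ V]
  [AddCommGroup V'] [Module ℂ V'] [FiniteDimensional ℂ V']

omit [Finite G] [FiniteDimensional ℂ V] in
theorem tr_conj (ρ : G →* End ℂ V) (g a : G) : tr (ρ (g * a * g⁻¹)) = tr (ρ a) := by
  rw [map_mul, tr_comm, ← map_mul, ← mul_assoc, inv_mul_cancel, one_mul]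

theorem mt_main (h : MT z Q R A) (ρ : G →* End ℂ V) (ρ' : G →* End ℂ V') (hz : ρ z ≠ 1)
    (h1 : finrank ℂ V' = 196884) (h2 : tr (ρ' z) = 276)
    (h3 : ∀ k c, A k c → uQ Q (fun a => tr (ρ' a)) c = S2 k) : 196883 ≤ finrank ℂ V := by
  classical
  by_contra hV
  have E := h.lx.toES
  obtain ⟨m, a1, a2⟩ := decomp ρ h (by omega)
  obtain ⟨m', b1, b2⟩ := decomp ρ' h h1.le
  obtain ⟨W, σ₀, s1, s2⟩ := inv_layer ρ Q (Subgroup.centralizer {z}).subtype fun c x hx =>
    h.lx.norm _ (Subgroup.mem_centralizer_singleton_iff.1 c.2) x hx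
  obtain ⟨σ, hσ⟩ := descend h (MonoidHom.id _)
    (fun c => if e : c ∈ Subgroup.centralizer {z} then σ₀ ⟨c, e⟩ else 1)
    (· ∈ Subgroup.centralizer {z}) (fun _ _ e => Subgroup.mem_centralizer_singleton_iff.2 (h.A_comm e))
    (fun a b ha hb => by rw [dif_pos ha, dif_pos hb, dif_pos (mul_mem ha hb), ← map_mul]; rfl)
    fun q hq => by
      split_ifs with e
      exacts [s1 _ hq, rfl]
  have u : ∀ k c, A k c → tr (σ k) = uQ Q (fun a => tr (ρ a)) c := fun k c e => by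
    have m := Subgroup.mem_centralizer_singleton_iff.2 (h.A_comm e)
    rw [hσ k c e, dif_pos m, uQ, eq_inv_mul_iff_mul_eq₀ (Nat.cast_ne_zero.2 Fintype.card_ne_zero), s2]
    rfl
  have A1 := h.A_one (one_mem Q)
  obtain ⟨j, hj⟩ := h.ex_x (e8 none)
  obtain ⟨g, e⟩ := isConj_iff.1 (h.conj_of_64 hj (sqNorm_e8 _))
  obtain ⟨g', e'⟩ := isConj_iff.1 (h.conj_of_64 (h.R_z hj) (sqNorm_e8 _))
  have c1 := a1 1 (one_mem _)
  have c2 := a1 j (h.R_mem hj)
  have d1 := b1 1 (one_mem _)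
  have d2 := b1 j (h.R_mem hj)
  rw [← e', tr_conj, ← e, tr_conj, e] at c2 d2
  rw [one_mul, map_one, tr, LinearMap.trace_one, Th_one h] at c1 d1
  rw [← u 1 1 A1, map_one σ, tr.eq_1 1, LinearMap.trace_one] at c1 c2
  rw [h3 1 1 A1, S2_one, h2] at d1 d2
  rw [h1] at d1
  obtain rfl : m' = 1 := Nat.cast_injective (R := ℂ) (by
    push_cast at d1 ⊢; linear_combination -d1 / 196560)
  have t : Th z Q R j = -48 := by push_cast at d2; linear_combination -d2
  rw [t] at c2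
  have n : finrank ℂ V = finrank ℂ W + 196584 * m := Nat.cast_injective (R := ℂ) (by
    push_cast; linear_combination c1 - c2 / 2)
  obtain rfl : m = 1 := by
    by_contra k
    obtain rfl : m = 0 := by omega
    have := eq_zero_of_tr (idem_of_sq (r := ρ z) (by rw [← map_mul, E.z_sq, map_one])) (by
      rw [tr, map_smul, map_sub, LinearMap.trace_one, smul_eq_mul]
      push_cast at c1 c2
      linear_combination (c1 - c2) / 2)
    exact hz (sub_eq_zero.1 ((smul_eq_zero.1 this).resolve_left (by norm_num))).symm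
  have := co_main σ (fun k => tr (σ k) - S2 k) (fun k => by ring) fun k hk ε hε => by
    obtain ⟨c, c', p1, p2, p3⟩ := triality h (δ := fun a => tr (ρ a) - tr (ρ' a))
      (F := fun c => uQ Q (fun a => tr (ρ a)) c - uQ Q (fun a => tr (ρ' a)) c)
      (fun g a => by rw [tr_conj, tr_conj])
      (fun c hc => by linear_combination a2 rfl c hc - b2 rfl c hc)
      (fun c q hq => by rw [uQ_mul _ _ hq, uQ_mul _ _ hq]) hk hε
    rw [u _ _ p1, u _ _ p2, ← h3 _ _ p1, ← h3 _ _ p2, p3]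
  omega

end abs

variable (P : Pk ℝ)

theorem sum_Q [Fintype (QQ P)] (v : VV ℝ) :
    ∑ q : QQ P, q.1.1 v = (Fintype.card (QQ P) : ℝ) • (v.1, 0, 0) := by
  have k : ∀ q ∈ QQ P, q.1 (∑ q : QQ P, q.1.1 v) = ∑ q : QQ P, q.1.1 v := fun q hq => by
    rw [map_sum]
    exact Equiv.sum_comp (Equiv.mulLeft (⟨q, hq⟩ : QQ P)) fun q => q.1.1 v
  refine Prod.ext ?_ (Prod.ext (funext fun r => ?_) ?_)
  · rw [Prod.fst_sum, Finset.sum_congr rfl (g := fun _ => v.1) fun q _ => ?_]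
    · simp [Nat.cast_smul_eq_nsmul]
    obtain ⟨_, _, h1, h2⟩ := q.2
    rw [acts_xf h1 h2]; rfl
  · obtain ⟨a, ha⟩ := not_forall.1 fun e => P.dat.not_cong_zero r (cong_zero_of_dot e)
    obtain ⟨q, hq⟩ := (mt P).ex_x a
    have := congrArg (fun w => w.2.1 r) (k q ((mt P).R_mem hq))
    obtain ⟨_, h1, h2⟩ := hq
    rw [dot_comm] at ha
    simp only [acts_xf h1 h2, Dat.xf, sg, if_neg ha] at this
    simp only [Prod.smul_mk, smul_zero, Pi.zero_apply]
    linarith
  · have := congrArg (fun w => w.2.2) (k _ (mt P).lx.z_mem)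
    simp only [zz_apply, zf] at this
    simp only [Prod.smul_mk, smul_zero]
    linear_combination (norm := module) (-(2 : ℝ)⁻¹) • this

/-- the complexified Griess module -/
noncomputable def rhoC : GG P →* End ℂ (ℂ ⊗[ℝ] VV ℝ) :=
  (End.baseChangeHom ℝ ℂ (VV ℝ)).toMonoidHom.comp
    (LinearEquiv.automorphismGroup.toLinearMapMonoidHom.comp (GG P).subtype)

theorem tr_rhoC (g : GG P) :
    tr (rhoC P g) = (LinearMap.trace ℝ _ (g.1 : VV ℝ →ₗ[ℝ] VV ℝ) : ℝ) :=
  LinearMap.trace_baseChange _ _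

theorem uQ_rhoC [Fintype (QQ P)] (k : Co0) (c : GG P) (h : P.dat.A kR k c) :
    uQ (QQ P) (fun a => tr (rhoC P a)) c = S2 k := by
  obtain ⟨_, -, a⟩ := h
  have e := trace_block (c.1.toLinearMap ∘ₗ LinearMap.inl ℝ _ _ ∘ₗ LinearMap.fst ℝ _ _) (km ℝ k) 0 0 id 0
    (fun u => a.e1 (u.1, 0)) (fun u r => by
      have := P.dat.M_inj two_ne_zero (ψ := 0) ((a.e2 (u.1, 0)).trans (by simp [Dat.M]))
      simpa using congrFun this r) fun u => by simpa using a.e3 (u.1, 0)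
  rw [uQ, inv_mul_eq_iff_eq_mul₀ (Nat.cast_ne_zero.2 Fintype.card_ne_zero)]
  simp only [tr_rhoC]
  rw [← Complex.ofReal_sum, ← map_sum, ← Complex.ofReal_natCast, ← Complex.ofReal_mul, S2]
  simp only [Pi.zero_apply, ite_self, Finset.sum_const_zero, Matrix.trace_zero, mul_zero,
    add_zero] at e
  rw [← e, ← smul_eq_mul, ← map_smul]
  congr 2
  refine LinearMap.ext fun v => ?_
  rw [LinearMap.sum_apply, LinearMap.smul_apply, LinearMap.comp_apply, ← map_smul]
  exact (map_sum c.1 (fun q : QQ P => q.1.1 v) _).symm.trans (congrArg c.1 (sum_Q P v))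

theorem min_degree {V : Type*} [AddCommGroup V] [Module ℂ V] [FiniteDimensional ℂ V]
    (ρ : GG P →* End ℂ V) (h : Function.Injective ρ) : 196883 ≤ finrank ℂ V := by
  have := finite_GG P
  let _ := Fintype.ofFinite (QQ P)
  refine mt_main (mt P) ρ (rhoC P) (fun e => (mt P).lx.z_ne (h (e.trans (map_one ρ).symm)))
    (by rw [finrank_baseChange, finrank_V P]) ?_ (uQ_rhoC P)
  rw [tr_rhoC, trace_z]
  norm_num

end CL.Deg
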