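import Mathlib

/-!
Linear algebra for the minimal degree of the Monster: invariants of a subgroup, projectors of rank
one and a system of five reflections.
-/

set_option autoImplicit false

namespace CL.Deg

open Module

variable {V : Type*} [AddCommGroup V] [Module ℂ V] [FiniteDimensional ℂ V]

/-- the trace -/
noncomputable abbrev tr (f : End ℂ V) : ℂ := LinearMap.trace ℂ V f

omit [FiniteDimensional ℂ V] in
theorem tr_comm (f g : End ℂ V) : tr (f * g) = tr (g * f) := LinearMap.trace_mul_comm ℂ f g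

theorem tr_idem {P : End ℂ V} (h : P * P = P) : tr P = finrank ℂ (LinearMap.range P) :=
  (LinearMap.IsIdempotentElem.isProj_range _ h).trace

theorem eq_zero_of_tr {P : End ℂ V} (h : P * P = P) (t : tr P = 0) : P = 0 := by
  rw [tr_idem h, Nat.cast_eq_zero, Submodule.finrank_eq_zero] at t
  exact LinearMap.range_eq_bot.1 t

theorem rank_one {P : End ℂ V} (h : P * P = P) (t : tr P = 1) :
    ∃ (a : V) (φ : V →ₗ[ℂ] ℂ), φ a = 1 ∧ ∀ v, P v = φ v • a := by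
  rw [tr_idem h, Nat.cast_eq_one] at t
  let b := Module.finBasisOfFinrankEq ℂ _ t
  have e : ∀ v, P v = b.coord 0 (P.rangeRestrict v) • (b 0 : V) := fun v => by
    have := congrArg Subtype.val (b.sum_repr (P.rangeRestrict v))
    simpa using this.symm
  refine ⟨b 0, b.coord 0 ∘ₗ P.rangeRestrict, ?_, e⟩
  have : P.rangeRestrict (b 0) = b 0 := Subtype.ext (by
    obtain ⟨w, hw⟩ := (b 0).2
    rw [LinearMap.rangeRestrict, LinearMap.codRestrict_apply, ← hw, ← End.mul_apply, h])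
  simp [this]

/-- the representation on the invariants of a subgroup -/
theorem inv_layer {K M : Type*} [Group K] [Group M] (ρ : K →* End ℂ V) (E : Subgroup K) [Fintype E]
    (ι : M →* K) (hn : ∀ m, ∀ x ∈ E, ι m * x * (ι m)⁻¹ ∈ E) :
    ∃ (W : Submodule ℂ V) (σ : M →* End ℂ W), (∀ m, ι m ∈ E → σ m = 1) ∧
      ∀ m, (Fintype.card E : ℂ) * tr (σ m) = ∑ x : E, tr (ρ (ι m * x)) := by
  let W : Submodule ℂ V := Representation.invariants (ρ.comp E.subtype)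
  have mW : ∀ v, v ∈ W ↔ ∀ x ∈ E, ρ x v = v := fun v =>
    ⟨fun h x hx => h ⟨x, hx⟩, fun h x => h x x.2⟩
  have hW : ∀ m, ∀ v ∈ W, ρ (ι m) v ∈ W := fun m v hv => (mW _).2 fun x hx => by
    have := (mW _).1 hv _ (hn m⁻¹ x hx)
    rw [← End.mul_apply, ← map_mul, show x * ι m = ι m * (ι m⁻¹ * x * (ι m⁻¹)⁻¹) by simp [mul_assoc],
      map_mul, End.mul_apply, this]
  refine ⟨W, { toFun := fun m => (ρ (ι m)).restrict (hW m), map_one' := ?_, map_mul' := ?_ },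
    fun m hm => ?_, fun m => ?_⟩
  · ext v; simp
  · intro a b; ext v; simp
  · ext v; exact (mW _).1 v.2 _ hm
  let S : End ℂ V := ∑ x : E, ρ x
  have hS : ∀ v, S v ∈ W := fun v => (mW _).2 fun y hy => by
    simp only [S, LinearMap.sum_apply, map_sum, ← End.mul_apply, ← map_mul]
    exact Equiv.sum_comp (Equiv.mulLeft (⟨y, hy⟩ : E)) fun x => ρ x v
  have h1 : ∀ v, (ρ (ι m) * S) v ∈ W := fun v => hW m _ (hS v)
  have h2 := LinearMap.trace_restrict_eq_of_forall_mem W _ h1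
  simp only [map_mul, tr]
  rw [← map_sum, ← Finset.mul_sum, ← h2, ← smul_eq_mul, ← map_smul]
  congr 1
  ext v
  have : S v = (Fintype.card E : ℂ) • (v : V) := by
    simp only [S, LinearMap.sum_apply]
    rw [Finset.sum_congr rfl fun (x : E) _ => (mW _).1 v.2 x x.2]
    simp [Nat.cast_smul_eq_nsmul]
  simp [this]

/-- a reflection -/
structure Rf (r : End ℂ V) (a : V) (φ : V →ₗ[ℂ] ℂ) : Prop where
  one : φ a = 1
  app : ∀ v, r v = v - (2 * φ v) • a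

theorem exists_rf {r : End ℂ V} (h : r * r = 1) (t : tr r = finrank ℂ V - 2) : ∃ a φ, Rf r a φ := by
  obtain ⟨a, φ, h1, h2⟩ := rank_one (P := (2 : ℂ)⁻¹ • (1 - r)) (by
    rw [smul_mul_smul_comm, mul_sub, sub_mul, sub_mul, h]; simp only [mul_one, one_mul]; module)
    (by rw [tr, map_smul, map_sub, LinearMap.trace_one, ← tr, t, smul_eq_mul]; ring)
  refine ⟨a, φ, h1, fun v => ?_⟩
  rw [mul_smul, ← h2]
  simp

namespace Rf

variable {r r' : End ℂ V} {a a' : V} {φ φ' : V →ₗ[ℂ] ℂ}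

omit [FiniteDimensional ℂ V] in
theorem zero (h : Rf r a φ) {t : ℂ} (e : t • a = 0) : t = 0 := by
  simpa [h.one] using congrArg φ e

theorem orth (h : Rf r a φ) (h' : Rf r' a' φ') (c : r * r' = r' * r)
    (t : tr (r * r') = finrank ℂ V - 4) : φ a' = 0 ∧ φ' a = 0 := by
  have e : r * r' = 1 - (2 : ℂ) • φ.smulRight a - (2 : ℂ) • φ'.smulRight a' +
      (4 * φ a') • φ'.smulRight a := LinearMap.ext fun v => by
    simp only [End.mul_apply, h.app, h'.app, map_sub, map_smul, LinearMap.add_apply,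
      LinearMap.sub_apply, LinearMap.smul_apply, LinearMap.smulRight_apply, End.one_apply, smul_eq_mul]
    module
  rw [e, tr] at t
  simp only [map_add, map_sub, map_smul, LinearMap.trace_one, LinearMap.trace_smulRight, h.one, h'.one,
    smul_eq_mul] at t
  have k : φ a' * φ' a = 0 := by linear_combination t / 4
  have c1 := congrArg φ (LinearMap.congr_fun c a')
  have c2 := congrArg φ' (LinearMap.congr_fun c a)
  simp only [End.mul_apply, h.app, h'.app, map_sub, map_smul, smul_eq_mul, h.one, h'.one] at c1 c2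
  constructor
  · linear_combination c1 / 4 + φ a' * k
  · linear_combination -c2 / 4 + φ' a * k

omit [FiniteDimensional ℂ V] in
theorem braid (h : Rf r a φ) (h' : Rf r' a' φ') (c : r * r' * r = r' * r * r') :
    4 * φ a' * φ' a = 1 ∨ a = φ' a • a' := by
  have c1 := LinearMap.congr_fun c a
  simp only [End.mul_apply, h.app, h'.app, map_sub, map_smul, smul_eq_mul, h.one, h'.one] at c1
  have : (4 * φ a' * φ' a - 1) • (a - φ' a • a') = 0 := by
    linear_combination (norm := module) (-(2 : ℂ)⁻¹) • c1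
  rcases smul_eq_zero.1 this with e | e
  exacts [Or.inl (sub_eq_zero.1 e), Or.inr (sub_eq_zero.1 e)]

omit [FiniteDimensional ℂ V] in
theorem mem_range (h : Rf r a φ) {c : End ℂ V} (c3 : c * c * c = 1) (i : r * c = c * c * r)
    (n : c ≠ 1) : ∃ v, a = c v - v := by
  have c3' : ∀ v, c (c (c v)) = v := fun v => LinearMap.congr_fun c3 v
  have i' : ∀ v, r (c v) = c (c (r v)) := fun v => LinearMap.congr_fun i v
  by_contra k
  have z : ∀ v, r (c v - v) = c v - v := fun v => by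
    have e : φ (c v - v) = 0 := by
      by_contra e
      refine k ⟨(2 * φ (c v - v))⁻¹ • (v - c (r v) - r v), ?_⟩
      have := h.app (c v - v)
      rw [map_sub, i'] at this
      rw [map_smul, ← smul_sub, eq_inv_smul_iff₀ (by simpa using e), map_sub c, map_sub c]
      linear_combination (norm := module) this
    rw [h.app, e]; simp
  refine n (LinearMap.ext fun v => ?_)
  have h1 := z (c v)
  rw [← map_sub, i', z] at h1
  have h2 := congrArg c (congrArg c h1)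
  simp only [map_sub, c3'] at h1 h2
  have : (3 : ℂ) • (c v - v) = 0 := by linear_combination (norm := module) -h1 - (2 : ℂ) • h2
  simpa [sub_eq_zero] using this

end Rf

omit [FiniteDimensional ℂ V] in
theorem cent_triv {r₁ r₃ r₅ c : End ℂ V} {a₁ a₃ a₅ : V} {φ₁ φ₃ φ₅ : V →ₗ[ℂ] ℂ} (h₁ : Rf r₁ a₁ φ₁)
    (h₃ : Rf r₃ a₃ φ₃) (h₅ : Rf r₅ a₅ φ₅) (s : r₁ * r₁ = 1) (c3 : c * c * c = 1)
    (i₁ : r₁ * c = c * c * r₁) (i₃ : r₃ * c = c * c * r₃) (i₅ : r₅ * c = c * c * r₅)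
    (o₁ : φ₃ a₁ = 0) (o₂ : φ₅ a₁ = 0) (o₃ : φ₃ a₅ = 0) : c = 1 := by
  by_contra n
  have k : ∀ v, ∃ x y : ℂ, c v - v = x • a₁ + y • c a₁ := fun v => by
    have e : c = r₁ * (c * (r₁ * (c * c))) := by
      rw [← mul_assoc, i₁, mul_assoc _ r₁, ← mul_assoc r₁, s, one_mul, ← mul_assoc, c3, one_mul]
    have e1 := LinearMap.congr_fun e v
    have e2 : c (c (c v)) = v := LinearMap.congr_fun c3 v
    simp only [End.mul_apply] at e1
    rw [h₁.app (c (c v)), map_sub, e2, map_smul, h₁.app] at e1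
    exact ⟨_, _, by rw [e1, sub_right_comm, sub_sub_cancel_left, sub_eq_add_neg, add_comm, ← neg_smul,
      ← neg_smul]⟩
  obtain ⟨v, e₃⟩ := h₃.mem_range c3 i₃ n
  obtain ⟨w, e₅⟩ := h₅.mem_range c3 i₅ n
  obtain ⟨x, y, e⟩ := k v
  obtain ⟨x', y', e'⟩ := k w
  rw [← e₃] at e
  rw [← e₅] at e'
  have f1 := congrArg φ₃ e
  have f2 := congrArg φ₃ e'
  have f3 := congrArg φ₅ e'
  simp only [map_add, map_smul, smul_eq_mul, h₃.one, h₅.one, o₁, o₂, o₃] at f1 f2 f3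
  have : y' = 0 := by linear_combination y' * f1 - y * f2
  simp [this] at f3

theorem five_le {r₁ r₂ r₃ r₄ r₅ c : End ℂ V} (s₁ : r₁ * r₁ = 1) (s₂ : r₂ * r₂ = 1) (s₃ : r₃ * r₃ = 1)
    (s₄ : r₄ * r₄ = 1) (s₅ : r₅ * r₅ = 1) (t₁ : tr r₁ = finrank ℂ V - 2)
    (t₂ : tr r₂ = finrank ℂ V - 2) (t₃ : tr r₃ = finrank ℂ V - 2) (t₄ : tr r₄ = finrank ℂ V - 2)
    (t₅ : tr r₅ = finrank ℂ V - 2) (b₁ : r₁ * r₂ * r₁ = r₂ * r₁ * r₂)
    (b₂ : r₂ * r₃ * r₂ = r₃ * r₂ * r₃) (b₃ : r₃ * r₄ * r₃ = r₄ * r₃ * r₄)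
    (b₄ : r₅ * r₄ * r₅ = r₄ * r₅ * r₄) (c₁₃ : r₁ * r₃ = r₃ * r₁) (c₁₄ : r₁ * r₄ = r₄ * r₁)
    (c₁₅ : r₁ * r₅ = r₅ * r₁) (c₂₄ : r₂ * r₄ = r₄ * r₂) (c₃₅ : r₃ * r₅ = r₅ * r₃)
    (c₂₅ : c * r₂ * r₅ = r₅ * (c * r₂)) (t₁₃ : tr (r₁ * r₃) = finrank ℂ V - 4)
    (t₁₄ : tr (r₁ * r₄) = finrank ℂ V - 4) (t₁₅ : tr (r₁ * r₅) = finrank ℂ V - 4)
    (t₂₄ : tr (r₂ * r₄) = finrank ℂ V - 4) (t₃₅ : tr (r₃ * r₅) = finrank ℂ V - 4)
    (t₂₅ : tr (c * r₂ * r₅) = finrank ℂ V - 4) (c3 : c * c * c = 1) (i₁ : r₁ * c = c * c * r₁)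
    (i₃ : r₃ * c = c * c * r₃) (i₅ : r₅ * c = c * c * r₅) : 5 ≤ finrank ℂ V := by
  obtain ⟨a₁, φ₁, h₁⟩ := exists_rf s₁ t₁
  obtain ⟨a₂, φ₂, h₂⟩ := exists_rf s₂ t₂
  obtain ⟨a₃, φ₃, h₃⟩ := exists_rf s₃ t₃
  obtain ⟨a₄, φ₄, h₄⟩ := exists_rf s₄ t₄
  obtain ⟨a₅, φ₅, h₅⟩ := exists_rf s₅ t₅
  obtain ⟨o13, o31⟩ := h₁.orth h₃ c₁₃ t₁₃
  obtain ⟨o14, o41⟩ := h₁.orth h₄ c₁₄ t₁₄
  obtain ⟨o15, o51⟩ := h₁.orth h₅ c₁₅ t₁₅
  obtain ⟨o24, o42⟩ := h₂.orth h₄ c₂₄ t₂₄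
  obtain ⟨o35, o53⟩ := h₃.orth h₅ c₃₅ t₃₅
  obtain rfl := cent_triv h₁ h₃ h₅ s₁ c3 i₁ i₃ i₅ o31 o51 o35
  rw [one_mul] at c₂₅ t₂₅
  obtain ⟨o25, o52⟩ := h₂.orth h₅ c₂₅ t₂₅
  have k : ∀ {r r' r'' : End ℂ V} {a a' a'' : V} {φ φ' φ'' : V →ₗ[ℂ] ℂ}, Rf r a φ → Rf r' a' φ' →
      Rf r'' a'' φ'' → r * r' * r = r' * r * r' → r' * r'' * r' = r'' * r' * r'' → φ'' a = 0 →
      4 * φ a' * φ' a = 1 := fun {_ _ _ a a' a'' φ φ' φ''} h h' h'' b b' o => by
    refine (h.braid h' b).resolve_right fun e => ?_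
    have e1 := congrArg φ e
    have e2 := congrArg φ'' e
    rw [map_smul, smul_eq_mul] at e1 e2
    have e3 : φ'' a' = 0 := by linear_combination φ'' a' * (h.one.symm.trans e1) + φ a' * (o - e2)
    rcases h'.braid h'' b' with e | e
    · simp [e3] at e
    · have := h'.one
      rw [e, e3] at this
      simp at this
  have p1 := k h₁ h₂ h₃ b₁ b₂ o31
  have p2 := k h₂ h₃ h₄ b₂ b₃ o42
  have p3 := k h₃ h₄ h₅ b₃ b₄.symm o53
  have p4 := k h₅ h₄ h₃ b₄ b₃.symm o35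
  have li : LinearIndependent ℂ ![a₁, a₂, a₃, a₄, a₅] := by
    rw [Fintype.linearIndependent_iff]
    intro g hg
    have f1 := congrArg φ₁ hg
    have f2 := congrArg φ₂ hg
    have f3 := congrArg φ₃ hg
    have f4 := congrArg φ₄ hg
    have f5 := congrArg φ₅ hg
    simp [Fin.sum_univ_five, h₁.one, h₂.one, h₃.one, h₄.one, h₅.one, o13, o31, o14, o41, o15, o51, o24,
      o42, o35, o53, o25, o52] at f1 f2 f3 f4 f5
    have g1 : 3 * g 1 + 4 * g 2 * φ₂ a₃ = 0 := by linear_combination 4 * f2 - 4 * φ₂ a₁ * f1 + g 1 * p1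
    have g2 : 2 * g 2 + 3 * g 3 * φ₃ a₄ = 0 := by linear_combination 3 * f3 - φ₃ a₂ * g1 + g 2 * p2
    have g3 : 5 * g 3 + 8 * g 4 * φ₄ a₅ = 0 := by
      linear_combination 8 * f4 - 4 * φ₄ a₃ * g2 + 3 * g 3 * p3
    have g4 : g 4 = 0 := by linear_combination (5 * f5 - φ₅ a₄ * g3 + 2 * g 4 * p4) / 3
    have g3' : g 3 = 0 := by linear_combination (g3 - 8 * φ₄ a₅ * g4) / 5
    have g2' : g 2 = 0 := by linear_combination (g2 - 3 * φ₃ a₄ * g3') / 2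
    have g1' : g 1 = 0 := by linear_combination (g1 - 4 * φ₂ a₃ * g2') / 3
    have g0 : g 0 = 0 := by linear_combination f1 - φ₁ a₂ * g1'
    intro i
    fin_cases i <;> assumption
  simpa using li.fintype_card_le_finrank

end CL.Deg
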